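import Cfsg.Agent.Lib.OffenderComp.Offender

/-!
Replacement: an element of a best offender acting trivially on every commutator.
-/

set_option autoImplicit false
set_option linter.unusedSectionVars false
set_option linter.style.haveILetI false

namespace Cfsg.Agent.Lib.OffenderComp

open Subgroup

/-- counting by fibres -/
lemma card_le_mul {α β γ : Type*} [Nonempty α] [Finite β] [Finite γ] (f : α → β) (g : α → α → γ)
    (h : ∀ a x y, f x = f a → f y = f a → g a x = g a y → x = y) :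
    Nat.card α ≤ Nat.card β * Nat.card γ := by
  rw [← Nat.card_prod]
  refine Nat.card_le_card_of_injective (fun x => (f x, g (Function.invFun f (f x)) x)) ?_
  intro x y hxy
  simp only [Prod.mk.injEq] at hxy
  obtain ⟨h1, h2⟩ := hxy
  rw [← h1] at h2
  have e : f (Function.invFun f (f x)) = f x := Function.invFun_eq ⟨x, rfl⟩
  exact h _ x y e.symm (h1.symm.trans e.symm) h2

variable {G : Type*} [Group G] [Finite G]

lemma card_mul_le_sup_inf (X Y : Subgroup G) :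
    Nat.card ↥X * Nat.card ↥Y ≤ Nat.card ↥(X ⊔ Y) * Nat.card ↥(X ⊓ Y) := by
  classical
  rw [← Nat.card_prod]
  refine card_le_mul (fun q : ↥X × ↥Y => (⟨(q.1 : G) * q.2, mul_mem_sup q.1.2 q.2.2⟩ : ↥(X ⊔ Y)))
    (fun q r => if h : (q.1 : G)⁻¹ * r.1 ∈ Y then ⟨(q.1 : G)⁻¹ * r.1,
      X.mul_mem (X.inv_mem q.1.2) r.1.2, h⟩ else 1) ?_
  intro q r s hr hs he
  have key : ∀ r : ↥X × ↥Y, (r.1 : G) * r.2 = q.1 * q.2 → (q.1 : G)⁻¹ * r.1 ∈ Y := by
    intro r h
    have : (q.1 : G)⁻¹ * r.1 = q.2 * (r.2 : G)⁻¹ := by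
      rw [inv_mul_eq_iff_eq_mul, ← mul_assoc, ← h, mul_inv_cancel_right]
    rw [this]; exact Y.mul_mem q.2.2 (Y.inv_mem r.2.2)
  have hr' := congrArg Subtype.val hr
  have hs' := congrArg Subtype.val hs
  simp only at hr' hs'
  simp only [dif_pos (key r hr'), dif_pos (key s hs')] at he
  have he' : (r.1 : G) = s.1 := mul_left_cancel (congrArg Subtype.val he)
  refine Prod.ext (Subtype.ext he') (Subtype.ext ?_)
  exact mul_left_cancel (a := (r.1 : G)) (by rw [hr', he', hs'])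

variable {p : ℕ} [Fact p.Prime] {V : Type*} [AddCommGroup V] [Module (ZMod p) V] [Finite V]
  {ρ : Representation (ZMod p) G V}

omit [Finite G] in
lemma card_sup_inf (U U' : Submodule (ZMod p) V) :
    Nat.card ↥(U ⊔ U') * Nat.card ↥(U ⊓ U') = Nat.card ↥U * Nat.card ↥U' := by
  rw [Module.natCard_eq_pow_finrank (K := ZMod p) (V := ↥(U ⊔ U')),
    Module.natCard_eq_pow_finrank (K := ZMod p) (V := ↥(U ⊓ U')),
    Module.natCard_eq_pow_finrank (K := ZMod p) (V := ↥U),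
    Module.natCard_eq_pow_finrank (K := ZMod p) (V := ↥U'), ← pow_add, ← pow_add,
    Submodule.finrank_sup_add_finrank_inf_eq]

omit [Finite G] in
lemma fixA_anti {X Y : Subgroup G} (h : X ≤ Y) : fixA ρ Y ≤ fixA ρ X := fun _ hv =>
  mem_fixA.2 fun x hx => mem_fixA.1 hv x (h hx)

omit [Finite G] in
lemma fixA_sup (X Y : Subgroup G) : fixA ρ (X ⊔ Y) = fixA ρ X ⊓ fixA ρ Y := by
  refine le_antisymm (le_inf (fixA_anti le_sup_left) (fixA_anti le_sup_right)) (fun v hv => ?_)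
  have hle : X ⊔ Y ≤ stab ρ {v} := sup_le
    (fun x hx u hu => by rw [Set.mem_singleton_iff.1 hu]; exact mem_fixA.1 hv.1 x hx)
    (fun y hy u hu => by rw [Set.mem_singleton_iff.1 hu]; exact mem_fixA.1 hv.2 y hy)
  exact mem_fixA.2 fun g hg => hle hg v rfl

omit [Finite G] in
/-- the offender inequality passes to invariant submodules -/
lemma offender_restrict (A : Subgroup G) (W : Submodule (ZMod p) V)
    (hP : ∀ B : Subgroup G, B ≤ A →
      Nat.card ↥B * Nat.card ↥(fixA ρ B) ≤ Nat.card ↥A * Nat.card ↥(fixA ρ A))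
    (B : Subgroup G) (hB : B ≤ A) :
    Nat.card ↥B * Nat.card ↥(fixA ρ B ⊓ W) ≤ Nat.card ↥A * Nat.card ↥(fixA ρ A ⊓ W) := by
  have h1 := card_sup_inf (fixA ρ A) (fixA ρ B ⊓ W)
  rw [← inf_assoc, inf_eq_left.2 (fixA_anti hB)] at h1
  have h2 : Nat.card ↥(fixA ρ A ⊔ fixA ρ B ⊓ W) ≤ Nat.card ↥(fixA ρ B) :=
    Nat.card_le_card_of_injective _
      (Submodule.inclusion_injective (sup_le (fixA_anti hB) inf_le_left))
  have h3 := hP B hB
  refine Nat.le_of_mul_le_mul_left ?_ (Nat.card_pos (α := ↥(fixA ρ A)))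
  calc Nat.card ↥(fixA ρ A) * (Nat.card ↥B * Nat.card ↥(fixA ρ B ⊓ W))
      = Nat.card ↥B * (Nat.card ↥(fixA ρ A ⊔ fixA ρ B ⊓ W) * Nat.card ↥(fixA ρ A ⊓ W)) := by
        rw [h1]; ring
    _ ≤ Nat.card ↥B * (Nat.card ↥(fixA ρ B) * Nat.card ↥(fixA ρ A ⊓ W)) := by gcongr
    _ ≤ Nat.card ↥A * Nat.card ↥(fixA ρ A) * Nat.card ↥(fixA ρ A ⊓ W) := by
        rw [← mul_assoc]; gcongr
    _ = _ := by ring

omit [Finite G] in
/-- a p-group has fixed points modulo an invariant submodule -/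
lemma exists_fixed_mod (A : Subgroup G) (hcomm : ∀ a ∈ A, ∀ b ∈ A, a * b = b * a)
    (hexp : ∀ a ∈ A, a ^ p = 1) (W U : Submodule (ZMod p) V) (hW : ∀ a ∈ A, ∀ v ∈ W, ρ a v ∈ W)
    (hU : ∀ a ∈ A, ∀ v ∈ U, ρ a v ∈ U) (hne : ¬ W ≤ U) (s : Finset ↥A) :
    ∃ v ∈ W, v ∉ U ∧ ∀ a ∈ s, ρ (a : G) v - v ∈ U := by
  classical
  induction s using Finset.induction_on with
  | empty =>
    obtain ⟨v, hv, hvU⟩ := SetLike.not_le_iff_exists.1 hne
    exact ⟨v, hv, hvU, by simp⟩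
  | @insert a s has ih =>
    obtain ⟨v, hv, hvU, hs⟩ := ih
    set N := ρ (a : G) - 1 with hN
    haveI : Nontrivial V := ⟨⟨v, 0, fun h => hvU (h ▸ U.zero_mem)⟩⟩
    haveI : CharP (Module.End (ZMod p) V) p :=
      charP_of_injective_algebraMap (algebraMap (ZMod p) (Module.End (ZMod p) V)).injective p
    have hNp : N ^ p = 0 := by
      rw [hN, sub_pow_char_of_commute _ (Commute.one_right _), ← map_pow, hexp a a.2,
        map_one, one_pow, sub_self]
    have hex : ∃ n, (N ^ n) v ∈ U := ⟨p, by rw [hNp]; exact U.zero_mem⟩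
    have hn0 : Nat.find hex ≠ 0 := by
      intro h
      have := Nat.find_spec hex
      rw [h, pow_zero, Module.End.one_apply] at this
      exact hvU this
    obtain ⟨k, hk⟩ := Nat.exists_eq_succ_of_ne_zero hn0
    have hk1 : (N ^ k) v ∉ U := Nat.find_min hex (by omega)
    have hk2 : N ((N ^ k) v) ∈ U := by
      have := Nat.find_spec hex
      rwa [hk, pow_succ', Module.End.mul_apply] at this
    have hinv : ∀ j, (N ^ j) v ∈ W ∧ ∀ b ∈ s, ρ (b : G) ((N ^ j) v) - (N ^ j) v ∈ U := by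
      intro j
      induction j with
      | zero => rw [pow_zero, Module.End.one_apply]; exact ⟨hv, hs⟩
      | succ j ihj =>
        have e : (N ^ (j + 1)) v = ρ (a : G) ((N ^ j) v) - (N ^ j) v := by
          rw [pow_succ', Module.End.mul_apply, hN]; rfl
        rw [e]
        refine ⟨W.sub_mem (hW a a.2 _ ihj.1) ihj.1, fun b hb => ?_⟩
        rw [map_sub, act_comm ρ (hcomm b b.2 a a.2), sub_sub_sub_comm, ← map_sub]
        exact U.sub_mem (hU a a.2 _ (ihj.2 b hb)) (ihj.2 b hb)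
    refine ⟨_, (hinv k).1, hk1, fun b hb => ?_⟩
    rcases Finset.mem_insert.1 hb with rfl | hb
    · exact hk2
    · exact (hinv k).2 b hb

/-- Replacement: some element of `A` moves `W` and fixes `[W, A]` pointwise. -/
lemma exists_quadratic (A : Subgroup G) (hcomm : ∀ a ∈ A, ∀ b ∈ A, a * b = b * a)
    (hexp : ∀ a ∈ A, a ^ p = 1) (W : Submodule (ZMod p) V) (hW : ∀ a ∈ A, ∀ v ∈ W, ρ a v ∈ W)
    (hP : ∀ B : Subgroup G, B ≤ A →
      Nat.card ↥B * Nat.card ↥(fixA ρ B ⊓ W) ≤ Nat.card ↥A * Nat.card ↥(fixA ρ A ⊓ W))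
    (hmove : ∃ a ∈ A, ∃ v ∈ W, ρ a v ≠ v) :
    ∃ c ∈ A, (∃ v ∈ W, ρ c v ≠ v) ∧ ∀ a ∈ A, ∀ v ∈ W, ρ c (ρ a v - v) = ρ a v - v := by
  classical
  set C := fixA ρ A ⊓ W with hC
  let D : V → Submodule (ZMod p) V := fun v =>
    Submodule.span (ZMod p) (Set.range fun a : ↥A => ρ (a : G) v - v) ⊔ C
  let X : V → Subgroup G := fun v => A ⊓ stab ρ (D v : Set V)
  let N : Submodule (ZMod p) V := ⨆ v : ↥W, D (v : V)
  have hCN : C ≤ N := le_iSup_of_le (⟨0, W.zero_mem⟩ : ↥W) le_sup_right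
  have hDW : ∀ v ∈ W, D v ≤ W := fun v hv => sup_le (Submodule.span_le.2 (by
    rintro _ ⟨a, rfl⟩; exact W.sub_mem (hW a a.2 v hv) hv)) inf_le_right
  have hDfix : ∀ v, D v ≤ fixA ρ (X v) := fun v y hy => mem_fixA.2 fun x hx => hx.2 y hy
  have hbig : ∀ v ∈ W, Nat.card ↥A * Nat.card ↥C ≤ Nat.card ↥(X v) * Nat.card ↥(D v) := by
    intro v hv
    have hquot := Submodule.card_eq_card_quotient_mul_card (C.comap (D v).subtype)
    have hCc : Nat.card ↥(C.comap (D v).subtype) = Nat.card ↥C :=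
      Nat.card_congr (Submodule.comapSubtypeEquivOfLe (le_sup_right : C ≤ D v)).toEquiv
    rw [hCc] at hquot
    haveI : Finite (↥(D v) ⧸ C.comap (D v).subtype) :=
      Finite.of_surjective _ (Submodule.mkQ_surjective _)
    have h1 : Nat.card ↥A ≤
        Nat.card (↥(D v) ⧸ C.comap (D v).subtype) * Nat.card ↥(X v) := by
      refine card_le_mul (fun a : ↥A => Submodule.Quotient.mk
        (⟨ρ (a : G) v - v, le_sup_left (b := C) (Submodule.subset_span ⟨a, rfl⟩)⟩ : ↥(D v)))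
        (fun b a => if h : (b : G)⁻¹ * a ∈ X v then ⟨_, h⟩ else 1) ?_
      intro b a a' ha ha' he
      have key : ∀ a : ↥A, (Submodule.Quotient.mk
          (⟨ρ (a : G) v - v, le_sup_left (b := C) (Submodule.subset_span ⟨a, rfl⟩)⟩ : ↥(D v)) :
            ↥(D v) ⧸ C.comap (D v).subtype) =
          Submodule.Quotient.mk
          (⟨ρ (b : G) v - v, le_sup_left (b := C) (Submodule.subset_span ⟨b, rfl⟩)⟩ : ↥(D v)) →
          (b : G)⁻¹ * a ∈ X v := by
        intro a h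
        rw [Submodule.Quotient.eq, Submodule.mem_comap] at h
        simp only [Submodule.subtype_apply, AddSubgroupClass.coe_sub, sub_sub_sub_cancel_right] at h
        set u := (b : G)⁻¹ * a with hu
        have huA : u ∈ A := A.mul_mem (A.inv_mem b.2) a.2
        have hz : ρ u v - v ∈ C := by
          have e : ρ u v - v = ρ (b : G)⁻¹ (ρ (a : G) v - ρ (b : G) v) := by
            rw [map_sub, act_inv, hu, act_mul]
          rw [e, mem_fixA.1 h.1 _ (A.inv_mem b.2)]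
          exact h
        refine ⟨huA, ?_⟩
        have hle : D v ≤ LinearMap.ker (ρ u - 1) := by
          refine sup_le (Submodule.span_le.2 ?_) ?_
          · rintro _ ⟨e, rfl⟩
            simp only [SetLike.mem_coe, LinearMap.mem_ker, LinearMap.sub_apply,
              Module.End.one_apply]
            have h5 := mem_fixA.1 hz.1 e e.2
            rw [map_sub] at h5
            rw [map_sub, act_comm ρ (hcomm u huA e e.2), sub_sub_sub_comm, h5, sub_self]
          · intro y hy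
            simp [mem_fixA.1 hy.1 u huA]
        intro y hy
        have := hle hy
        simpa [sub_eq_zero] using this
      simp only [dif_pos (key a ha), dif_pos (key a' ha'), Subtype.mk.injEq, mul_right_inj] at he
      exact Subtype.ext he
    calc Nat.card ↥A * Nat.card ↥C
        ≤ Nat.card (↥(D v) ⧸ C.comap (D v).subtype) * Nat.card ↥(X v) * Nat.card ↥C := by gcongr
      _ = _ := by rw [hquot]; ring
  let S : Set (Subgroup G) := {Y | Y ≤ A ∧
    Nat.card ↥A * Nat.card ↥C ≤ Nat.card ↥Y * Nat.card ↥(fixA ρ Y ⊓ W) ∧ fixA ρ Y ⊓ W ≤ N}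
  have hXS : ∀ v ∈ W, X v ∈ S := by
    intro v hv
    have hle : D v ≤ fixA ρ (X v) ⊓ W := le_inf (hDfix v) (hDW v hv)
    have h1 := hbig v hv
    have h2 := hP (X v) inf_le_left
    have heq : D v = fixA ρ (X v) ⊓ W := by
      refine SetLike.coe_injective (Set.eq_of_subset_of_ncard_le hle ?_ (Set.toFinite _))
      rw [← Nat.card_coe_set_eq, ← Nat.card_coe_set_eq]
      exact Nat.le_of_mul_le_mul_left (h2.trans h1) Nat.card_pos
    refine ⟨inf_le_left, h1.trans (Nat.mul_le_mul_left _ (le_of_eq (by rw [← heq]))), ?_⟩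
    rw [← heq]; exact le_iSup_of_le (⟨v, hv⟩ : ↥W) le_rfl
  have hinf : ∀ Y ∈ S, ∀ Z ∈ S, Y ⊓ Z ∈ S := by
    rintro Y ⟨hYA, hY, hYN⟩ Z ⟨hZA, hZ, hZN⟩
    set FY := fixA ρ Y ⊓ W
    set FZ := fixA ρ Z ⊓ W
    set FI := fixA ρ (Y ⊓ Z) ⊓ W
    have hJ : FY ⊓ FZ = fixA ρ (Y ⊔ Z) ⊓ W := by rw [fixA_sup, inf_inf_inf_comm, inf_idem]
    have hsub : FY ⊔ FZ ≤ FI := sup_le (inf_le_inf_right _ (fixA_anti inf_le_left))
      (inf_le_inf_right _ (fixA_anti inf_le_right))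
    have hI := hP (Y ⊓ Z) (inf_le_left.trans hYA)
    have hJ2 := hP (Y ⊔ Z) (sup_le hYA hZA)
    rw [← hJ] at hJ2
    have h1 := Nat.mul_le_mul hY hZ
    have h2 : Nat.card ↥Y * Nat.card ↥FY * (Nat.card ↥Z * Nat.card ↥FZ) ≤
        Nat.card ↥A * Nat.card ↥C * (Nat.card ↥(Y ⊓ Z) * Nat.card ↥(FY ⊔ FZ)) := by
      calc Nat.card ↥Y * Nat.card ↥FY * (Nat.card ↥Z * Nat.card ↥FZ)
          = (Nat.card ↥Y * Nat.card ↥Z) * (Nat.card ↥(FY ⊔ FZ) * Nat.card ↥(FY ⊓ FZ)) := by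
            rw [card_sup_inf]; ring
        _ ≤ (Nat.card ↥(Y ⊔ Z) * Nat.card ↥(Y ⊓ Z)) *
            (Nat.card ↥(FY ⊔ FZ) * Nat.card ↥(FY ⊓ FZ)) :=
            Nat.mul_le_mul_right _ (card_mul_le_sup_inf Y Z)
        _ = (Nat.card ↥(Y ⊔ Z) * Nat.card ↥(FY ⊓ FZ)) *
            (Nat.card ↥(Y ⊓ Z) * Nat.card ↥(FY ⊔ FZ)) := by ring
        _ ≤ _ := by gcongr
    have hpos : 0 < Nat.card ↥A * Nat.card ↥C := Nat.mul_pos Nat.card_pos Nat.card_pos
    have h3 : Nat.card ↥A * Nat.card ↥C ≤ Nat.card ↥(Y ⊓ Z) * Nat.card ↥(FY ⊔ FZ) :=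
      Nat.le_of_mul_le_mul_left (h1.trans h2) hpos
    have heq : FY ⊔ FZ = FI := by
      refine SetLike.coe_injective (Set.eq_of_subset_of_ncard_le hsub ?_ (Set.toFinite _))
      rw [← Nat.card_coe_set_eq, ← Nat.card_coe_set_eq]
      exact Nat.le_of_mul_le_mul_left (hI.trans h3) Nat.card_pos
    refine ⟨inf_le_left.trans hYA, h3.trans ?_, ?_⟩
    · rw [heq]
    · show FI ≤ N
      rw [← heq]; exact sup_le hYN hZN
  obtain ⟨X0, hX0⟩ := (Set.toFinite S).exists_minimal ⟨X 0, hXS 0 W.zero_mem⟩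
  have hle : ∀ v ∈ W, X0 ≤ X v := fun v hv =>
    le_trans (hX0.le_of_le (hinf X0 hX0.prop _ (hXS v hv)) inf_le_left) inf_le_right
  by_contra hcon
  push Not at hcon
  have htriv : ∀ c ∈ X0, ∀ v ∈ W, ρ c v = v := by
    intro c hc v hv
    by_contra hne
    obtain ⟨a, ha, w, hw, hw'⟩ := hcon c (hX0.prop.1 hc) ⟨v, hv, hne⟩
    exact hw' ((hle w hw hc).2 _ (le_sup_left (b := C) (Submodule.subset_span ⟨⟨a, ha⟩, rfl⟩)))
  have hWN : W ≤ N := fun v hv => hX0.prop.2.2 ⟨mem_fixA.2 fun c hc => htriv c hc v hv, hv⟩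
  obtain ⟨a, ha, w, hw, hmov⟩ := hmove
  -- a maximal proper invariant submodule of `W` containing `C`
  obtain ⟨U, hU⟩ := ({U : Submodule (ZMod p) V | C ≤ U ∧ U < W ∧
      ∀ a ∈ A, ∀ v ∈ U, ρ a v ∈ U}).toFinite.exists_maximal
    ⟨C, le_rfl, lt_of_le_of_ne inf_le_right
      (fun h => hmov (mem_fixA.1 (h ▸ hw : w ∈ C).1 a ha)),
      fun b hb v hv => by rw [mem_fixA.1 hv.1 b hb]; exact hv⟩
  obtain ⟨hCU, hUW, hUA⟩ := hU.prop
  haveI : Fintype ↥A := Fintype.ofFinite _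
  obtain ⟨v, hv, hvU, hvfix⟩ :=
    exists_fixed_mod A hcomm hexp W U hW hUA (not_le_of_gt hUW) Finset.univ
  let U' : Submodule (ZMod p) V := W ⊓ ⨅ b : ↥A, U.comap (ρ (b : G) - 1)
  have hmemU' : ∀ y, y ∈ U' ↔ y ∈ W ∧ ∀ b ∈ A, ρ b y - y ∈ U := fun y => by simp [U']
  have hUU' : U ≤ U' := fun y hy =>
    (hmemU' y).2 ⟨hUW.le hy, fun b hb => U.sub_mem (hUA b hb y hy) hy⟩
  have hvU' : v ∈ U' := (hmemU' v).2 ⟨hv, fun b hb => hvfix ⟨b, hb⟩ (Finset.mem_univ _)⟩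
  have hU'A : ∀ b ∈ A, ∀ y ∈ U', ρ b y ∈ U' := by
    intro b hb y hy
    rw [hmemU'] at hy ⊢
    refine ⟨hW b hb y hy.1, fun e he => ?_⟩
    rw [act_comm ρ (hcomm e he b hb), ← map_sub]
    exact hUA b hb _ (hy.2 e he)
  have hU'W : U' = W := by
    by_contra hne
    exact hvU (hU.le_of_ge ⟨hCU.trans hUU', lt_of_le_of_ne inf_le_left hne, hU'A⟩ hUU' hvU')
  have hNU : N ≤ U := iSup_le fun y => sup_le (Submodule.span_le.2 (by
    rintro _ ⟨b, rfl⟩
    exact ((hmemU' y).1 (hU'W.ge y.2)).2 b b.2)) hCU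
  exact not_le_of_gt hUW (hWN.trans hNU)

end Cfsg.Agent.Lib.OffenderComp
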