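import Cfsg.Agent.Lib.OffenderComp.Dual
import Cfsg.Agent.Lib.OffenderComp.Replace

/-!
Reduction of the normalisation of components to the irreducible linked case.
-/

set_option autoImplicit false
set_option linter.unusedSectionVars false
set_option linter.style.haveILetI false

namespace Cfsg.Agent.Lib.OffenderComp

open Subgroup

variable {G : Type*} [Group G] [Finite G] {p : ℕ} [Fact p.Prime]
  {V : Type*} [AddCommGroup V] [Module (ZMod p) V] [Finite V]

omit [Finite G] in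
/-- a perfect group with additive `k ↦ ρ k v - v` fixes `v` -/
lemma fix_of_additive (ρ : Representation (ZMod p) G V) {K : Subgroup G} (hqs : IsQuasisimple ↥K)
    {v : V} (h : ∀ k ∈ K, ∀ l ∈ K, ρ k (ρ l v - v) = ρ l v - v) : ∀ k ∈ K, ρ k v = v := by
  let f : ↥K →* Multiplicative V := MonoidHom.mk' (fun k => Multiplicative.ofAdd (ρ (k : G) v - v))
    (fun k l => by
      rw [← ofAdd_add]
      congr 1
      have := h k k.2 l l.2
      rw [map_sub] at this
      rw [Subgroup.coe_mul, act_mul, ← this]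
      abel)
  have h1 : commutator ↥K ≤ f.ker := by
    rw [_root_.commutator_def, commutator_le]
    intro x _ y _
    rw [MonoidHom.mem_ker, map_commutatorElement, commutatorElement_eq_one_iff_mul_comm]
    exact mul_comm _ _
  rw [Group.isPerfect_def.1 hqs.1] at h1
  intro k hk
  have h2 : Multiplicative.ofAdd (ρ k v - v) = 1 := MonoidHom.mem_ker.1 (h1 (mem_top ⟨k, hk⟩))
  exact sub_eq_zero.1 (ofAdd_eq_one.1 h2)

set_option maxHeartbeats 1600000 in
/-- A best offender on a faithful module normalises every component. -/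
theorem offender_normalizes (ρ : Representation (ZMod p) G V) (hρ : Function.Injective ρ)
    (A : Subgroup G) (hcommA : ∀ a ∈ A, ∀ b ∈ A, a * b = b * a) (hexp : ∀ a ∈ A, a ^ p = 1)
    (hP : ∀ B : Subgroup G, B ≤ A →
      Nat.card ↥B * Nat.card ↥(fixA ρ B) ≤ Nat.card ↥A * Nat.card ↥(fixA ρ A))
    (K : Subgroup G) (hK : IsComponent K) : A ≤ normalizer (K : Set G) := by
  classical
  by_contra hnot
  obtain ⟨a₀, ha₀, ha₀n⟩ := SetLike.not_le_iff_exists.1 hnot
  have hdisj : ∀ a ∈ A, a ∉ normalizer (K : Set G) → ∀ k ∈ K, ∀ h ∈ K,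
      Commute k (a * h * a⁻¹) := by
    intro a ha han k hk h hh
    have hK' : IsComponent (K.map (MulAut.conj a).toMonoidHom) :=
      Components.isComponent_map_equiv hK (MulAut.conj a)
    have hne : K ≠ K.map (MulAut.conj a).toMonoidHom := fun he => han (by
      rw [mem_normalizer_iff]
      intro x
      constructor
      · intro hx
        rw [he]
        exact mem_map.2 ⟨x, hx, rfl⟩
      · intro hx
        rw [he] at hx
        obtain ⟨y, hy, hxy⟩ := mem_map.1 hx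
        have : y = x := (MulAut.conj a).injective hxy
        exact this ▸ hy)
    have h1 := Components.comp_commute hK hK' hne
    rw [commutator_eq_bot_iff_le_centralizer] at h1
    exact (mem_centralizer_iff.1 (h1 hk) _ (mem_map.2 ⟨h, hh, rfl⟩)).symm
  -- the module `W`
  let Inv : Submodule (ZMod p) V → Prop := fun U =>
    (∀ a ∈ A, ∀ v ∈ U, ρ a v ∈ U) ∧ (∀ k ∈ K, ∀ v ∈ U, ρ k v ∈ U)
  obtain ⟨W, hW⟩ := ({U : Submodule (ZMod p) V | Inv U ∧
      ∃ k ∈ K, ∃ v ∈ U, ρ k v ≠ v}).toFinite.exists_minimal ⟨⊤, ⟨fun _ _ _ _ => trivial,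
        fun _ _ _ _ => trivial⟩, by
      by_contra hn
      push Not at hn
      refine Components.comp_ne_bot hK (eq_bot_iff.2 fun k hk => ?_)
      rw [Subgroup.mem_bot]
      apply hρ
      rw [map_one]
      exact LinearMap.ext fun v => hn k hk v trivial⟩
  obtain ⟨⟨hWA, hWK⟩, hWne⟩ := hW.prop
  have hsmall : ∀ U, Inv U → U ≤ W → U = W ∨ ∀ k ∈ K, ∀ v ∈ U, ρ k v = v := by
    intro U hU hle
    by_cases h : ∀ k ∈ K, ∀ v ∈ U, ρ k v = v
    · exact Or.inr h
    · push Not at h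
      exact Or.inl (le_antisymm hle (hW.le_of_le ⟨hU, h⟩ hle))
  -- the vectors fixed by all translates
  let R : Submodule (ZMod p) V := W ⊓ ⨅ a : ↥A, (fixA ρ K).comap (ρ (a : G))
  have hmemR : ∀ v, v ∈ R ↔ v ∈ W ∧ ∀ a ∈ A, ∀ k ∈ K, ρ k (ρ a v) = ρ a v := fun v => by
    simp [R, mem_fixA]
  have hRK : ∀ k ∈ K, ∀ v ∈ R, ρ k v = v := fun k hk v hv => by
    have := ((hmemR v).1 hv).2 1 A.one_mem k hk
    rwa [act_one] at this
  have hRA : ∀ a ∈ A, ∀ v ∈ R, ρ a v ∈ R := by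
    intro a ha v hv
    obtain ⟨h1, h2⟩ := (hmemR v).1 hv
    refine (hmemR _).2 ⟨hWA a ha v h1, fun b hb k hk => ?_⟩
    rw [← act_mul ρ b a]
    exact h2 _ (A.mul_mem hb ha) k hk
  have hUR : ∀ U, Inv U → U ≤ W → U = W ∨ U ≤ R := by
    intro U hU hle
    refine (hsmall U hU hle).imp_right (fun h v hv => (hmemR v).2 ⟨hle hv, fun a ha k hk => ?_⟩)
    exact h k hk _ (hU.1 a ha v hv)
  have hRW : R ≤ W := inf_le_left
  -- the action on `W ⧸ R`
  let G1 : Subgroup G := A ⊔ K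
  have hA1 : A ≤ G1 := le_sup_left
  have hK1 : K ≤ G1 := le_sup_right
  have hGW : ∀ g ∈ G1, (∀ v ∈ W, ρ g v ∈ W) ∧ (∀ v ∈ R, ρ g v ∈ R) := by
    intro g hg
    rw [show G1 = Subgroup.closure ((A : Set G) ∪ K) by
      rw [Subgroup.closure_union, Subgroup.closure_eq, Subgroup.closure_eq]] at hg
    refine Subgroup.closure_induction
      (p := fun g _ => (∀ v ∈ W, ρ g v ∈ W) ∧ (∀ v ∈ R, ρ g v ∈ R)) ?_ ?_ ?_ ?_ hg
    · rintro x (hx | hx)
      · exact ⟨hWA x hx, hRA x hx⟩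
      · exact ⟨hWK x hx, fun v hv => by rw [hRK x hx v hv]; exact hv⟩
    · exact ⟨fun v hv => by rw [act_one]; exact hv, fun v hv => by rw [act_one]; exact hv⟩
    · intro x y _ _ hx hy
      exact ⟨fun v hv => by rw [act_mul]; exact hx.1 _ (hy.1 v hv),
        fun v hv => by rw [act_mul]; exact hx.2 _ (hy.2 v hv)⟩
    · intro x _ hx
      have hinv : ∀ U : Submodule (ZMod p) V, (∀ v ∈ U, ρ x v ∈ U) → ∀ v ∈ U, ρ x⁻¹ v ∈ U := by
        intro U hU v hv
        let f : ↥U → ↥U := fun u => ⟨ρ x u, hU u u.2⟩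
        have hf : Function.Injective f := fun u w h => Subtype.ext (by
          have := congrArg (ρ x⁻¹) (congrArg Subtype.val h)
          simpa only [f, act_inv] using this)
        obtain ⟨u, hu⟩ := (Finite.injective_iff_surjective.1 hf) ⟨v, hv⟩
        have hu' : ρ x u = v := congrArg Subtype.val hu
        rw [← hu', act_inv]; exact u.2
      exact ⟨hinv W hx.1, hinv R hx.2⟩
  let R' : Submodule (ZMod p) ↥W := R.comap W.subtype
  let res : ↥G1 → (↥W →ₗ[ZMod p] ↥W) := fun g => (ρ (g : G)).restrict (hGW g g.2).1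
  let σ : Representation (ZMod p) ↥G1 (↥W ⧸ R') :=
    { toFun := fun g => Submodule.mapQ R' R' (res g) (fun v hv => (hGW g g.2).2 v hv)
      map_one' := Submodule.linearMap_qext _ (LinearMap.ext fun v => by
        show Submodule.Quotient.mk (res 1 v) = Submodule.Quotient.mk v
        congr 1; exact Subtype.ext (act_one ρ (v : V)))
      map_mul' := fun g h => Submodule.linearMap_qext _ (LinearMap.ext fun v => by
        show Submodule.Quotient.mk (res (g * h) v) = Submodule.Quotient.mk (res g (res h v))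
        congr 1; exact Subtype.ext (act_mul ρ (g : G) h (v : V))) }
  have hσ : ∀ (g : ↥G1) (v : ↥W),
      σ g (Submodule.Quotient.mk v) = Submodule.Quotient.mk (res g v) := fun g v => rfl
  let ρ2 : Representation (ZMod p) (Module.End (ZMod p) (↥W ⧸ R'))ˣ (↥W ⧸ R') := Units.coeHom _
  obtain ⟨φ, hφσ⟩ : ∃ φ : ↥G1 →* (Module.End (ZMod p) (↥W ⧸ R'))ˣ, ∀ (g : ↥G1) (v : ↥W),
      ρ2 (φ g) (Submodule.Quotient.mk v) = Submodule.Quotient.mk (res g v) :=
    ⟨σ.toHomUnits, fun g v => hσ g v⟩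
  have hφ1 : ∀ (g : G) (hg : g ∈ G1), φ ⟨g, hg⟩ = 1 ↔ ∀ v ∈ W, ρ g v - v ∈ R := by
    intro g hg
    constructor
    · intro h v hv
      have h1 : ρ2 (φ ⟨g, hg⟩) (Submodule.Quotient.mk ⟨v, hv⟩) = Submodule.Quotient.mk ⟨v, hv⟩ := by
        rw [h]; rfl
      rw [hφσ, Submodule.Quotient.eq] at h1
      exact h1
    · intro h
      refine Units.ext (Submodule.linearMap_qext _ (LinearMap.ext fun v => ?_))
      show ρ2 (φ ⟨g, hg⟩) (Submodule.Quotient.mk v) = Submodule.Quotient.mk v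
      rw [hφσ, Submodule.Quotient.eq]
      exact h v v.2
  haveI : Finite (↥W ⧸ R') := Finite.of_surjective _ (Submodule.mkQ_surjective R')
  haveI : Finite (Module.End (ZMod p) (↥W ⧸ R')) :=
    Finite.of_injective (fun f : Module.End (ZMod p) (↥W ⧸ R') => (f : _ → _))
      DFunLike.coe_injective
  haveI : Finite (Module.End (ZMod p) (↥W ⧸ R'))ˣ :=
    Finite.of_injective Units.val Units.val_injective
  let A2 := (A.subgroupOf G1).map φ
  let K2 := (K.subgroupOf G1).map φ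
  have memA2 : ∀ x, x ∈ A2 ↔ ∃ (a : G) (ha : a ∈ A), φ ⟨a, hA1 ha⟩ = x := fun x => by
    constructor
    · rintro ⟨⟨a, h⟩, ha, rfl⟩; exact ⟨a, ha, rfl⟩
    · rintro ⟨a, ha, rfl⟩; exact ⟨⟨a, hA1 ha⟩, ha, rfl⟩
  have memK2 : ∀ x, x ∈ K2 ↔ ∃ (k : G) (hk : k ∈ K), φ ⟨k, hK1 hk⟩ = x := fun x => by
    constructor
    · rintro ⟨⟨k, h⟩, hk, rfl⟩; exact ⟨k, hk, rfl⟩
    · rintro ⟨k, hk, rfl⟩; exact ⟨⟨k, hK1 hk⟩, hk, rfl⟩
  -- `K` is nontrivial on `W ⧸ R`
  have hKnt : ∃ (k : G) (hk : k ∈ K), φ ⟨k, hK1 hk⟩ ≠ 1 := by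
    by_contra hn
    push Not at hn
    obtain ⟨k, hk, v, hv, hne⟩ := hWne
    refine hne (fix_of_additive ρ hK.2 (fun l hl m hm => hRK l hl _ ?_) k hk)
    exact (hφ1 m (hK1 hm)).1 (hn m hm) v hv
  let ψ : ↥K →* ↥K2 := (φ.comp (Subgroup.inclusion hK1)).codRestrict K2
    (fun k => (memK2 _).2 ⟨k, k.2, rfl⟩)
  have hψ : Function.Surjective ψ := by
    rintro ⟨x, hx⟩
    obtain ⟨k, hk, rfl⟩ := (memK2 x).1 hx
    exact ⟨⟨k, hk⟩, rfl⟩
  haveI : Nontrivial ↥K2 := by
    obtain ⟨k, hk, hne⟩ := hKnt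
    exact ⟨⟨⟨_, (memK2 _).2 ⟨k, hk, rfl⟩⟩, 1, fun h => hne (congrArg Subtype.val h)⟩⟩
  have hqs2 : IsQuasisimple ↥K2 := Components.qs_of_surjective hK.2 ψ hψ
  -- a mover stays a mover
  have hmove : ∀ (a : G) (ha : a ∈ A), φ ⟨a, hA1 ha⟩ ∈ normalizer (K2 : Set _) →
      a ∈ normalizer (K : Set G) := by
    intro a ha hn
    by_contra han
    apply Components.qs_quotient_not_commutative hqs2
    have hc : ∀ x y : ↥K2, x * y = y * x := by
      intro x y
      obtain ⟨k, hk, hkx⟩ := (memK2 _).1 x.2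
      obtain ⟨h, hh, hhy⟩ :=
        (memK2 _).1 ((mem_normalizer_iff''.1 hn (y : (Module.End (ZMod p) (↥W ⧸ R'))ˣ)).1 y.2)
      have h2 : (⟨k, hK1 hk⟩ : ↥G1) * (⟨a, hA1 ha⟩ * ⟨h, hK1 hh⟩ * ⟨a, hA1 ha⟩⁻¹) =
          (⟨a, hA1 ha⟩ * ⟨h, hK1 hh⟩ * ⟨a, hA1 ha⟩⁻¹) * ⟨k, hK1 hk⟩ :=
        Subtype.ext (hdisj a ha han k hk h hh).eq
      have h3 := congrArg φ h2
      simp only [map_mul, map_inv, hkx, hhy] at h3
      apply Subtype.ext
      simp only [Subgroup.coe_mul]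
      convert h3 using 1 <;> group
    refine ⟨⟨fun u v => ?_⟩⟩
    obtain ⟨x, rfl⟩ := QuotientGroup.mk_surjective u
    obtain ⟨y, rfl⟩ := QuotientGroup.mk_surjective v
    rw [← QuotientGroup.mk_mul, hc, QuotientGroup.mk_mul]
  -- an element of `A` trivial on `W ⧸ R` is trivial on `W`
  have hker : ∀ (c : G) (hc : c ∈ A), φ ⟨c, hA1 hc⟩ = 1 → ∀ v ∈ W, ρ c v = v := by
    intro c hc h1
    have hcn : c ∈ normalizer (K : Set G) := hmove c hc (by rw [h1]; exact one_mem _)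
    have hck : ∀ k ∈ K, c * k = k * c := by
      let kerK := (φ.comp (Subgroup.inclusion hK1)).ker
      have hkc : kerK ≤ center ↥K :=
        ((Components.qs_normal hK.2 (N := kerK) inferInstance).resolve_left (fun ht => by
          obtain ⟨k, hk, hne⟩ := hKnt
          exact hne (MonoidHom.mem_ker.1 (ht.ge (mem_top (⟨k, hk⟩ : ↥K))))))
      let f : ↥K → ↥K := fun k => ⟨c * k * c⁻¹ * (k : G)⁻¹,
        K.mul_mem ((mem_normalizer_iff.1 hcn k).1 k.2) (K.inv_mem k.2)⟩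
      have hf : ∀ k, f k ∈ center ↥K := fun k => hkc (by
        show φ (Subgroup.inclusion hK1 (f k)) = 1
        have e : Subgroup.inclusion hK1 (f k) = ⟨c, hA1 hc⟩ * ⟨(k : G), hK1 k.2⟩ *
            (⟨c, hA1 hc⟩ : ↥G1)⁻¹ * (⟨(k : G), hK1 k.2⟩ : ↥G1)⁻¹ := Subtype.ext rfl
        rw [e, map_mul, map_mul, map_mul, map_inv, map_inv, h1]
        group)
      have hmul : ∀ k l, f (k * l) = f k * f l := by
        intro k l
        have hz := congrArg Subtype.val (mem_center_iff.1 (hf l) (k⁻¹))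
        apply Subtype.ext
        simp only [f, Subgroup.coe_mul, Subgroup.coe_inv] at hz ⊢
        calc c * ((k : G) * l) * c⁻¹ * ((k : G) * l)⁻¹
            = c * k * c⁻¹ * (c * l * c⁻¹ * (l : G)⁻¹ * (k : G)⁻¹) := by group
          _ = _ := by rw [← hz]; group
      intro k hk
      have h2 := congrArg Subtype.val (hom_center_trivial hK.2 f hf hmul ⟨k, hk⟩)
      simp only [f, Subgroup.coe_one] at h2
      rwa [mul_inv_eq_one, mul_inv_eq_iff_eq_mul] at h2
    let U : Submodule (ZMod p) V := W ⊓ LinearMap.ker (ρ c - 1)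
    have hmU : ∀ v, v ∈ U ↔ v ∈ W ∧ ρ c v = v := fun v => by simp [U, sub_eq_zero]
    have hUi : Inv U := by
      constructor
      · intro a ha v hv
        obtain ⟨hv1, hv2⟩ := (hmU v).1 hv
        exact (hmU _).2 ⟨hWA a ha v hv1, by rw [act_comm ρ (hcommA c hc a ha), hv2]⟩
      · intro k hk v hv
        obtain ⟨hv1, hv2⟩ := (hmU v).1 hv
        exact (hmU _).2 ⟨hWK k hk v hv1, by rw [act_comm ρ (hck k hk), hv2]⟩
    rcases hsmall U hUi inf_le_left with h | h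
    · intro v hv; exact ((hmU v).1 (h.ge hv)).2
    · exfalso
      obtain ⟨k, hk, v, hv, hne⟩ := hWne
      refine hne (fix_of_additive ρ hK.2 (fun l hl m hm => h l hl _ ?_) k hk)
      have hd := (hφ1 c (hA1 hc)).1 h1 v hv
      refine (hmU _).2 ⟨W.sub_mem (hWK m hm v hv) hv, ?_⟩
      have h3 := hRK m hm _ hd
      rw [map_sub, ← act_comm ρ (hck m hm)] at h3
      rw [map_sub, ← sub_eq_zero, ← sub_eq_zero.2 h3]
      abel
  -- the linked element
  have hPW : ∀ B : Subgroup G, B ≤ A →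
      Nat.card ↥B * Nat.card ↥(fixA ρ B ⊓ W) ≤ Nat.card ↥A * Nat.card ↥(fixA ρ A ⊓ W) :=
    offender_restrict A W hP
  obtain ⟨c0, hc0, ⟨v0, hv0, hv0ne⟩, hlink⟩ := exists_quadratic A hcommA hexp W hWA hPW (by
    by_contra hn
    push Not at hn
    apply ha₀n
    refine hmove a₀ ha₀ ?_
    rw [(hφ1 a₀ (hA1 ha₀)).2 (fun v hv => by rw [hn a₀ ha₀ v hv, sub_self]; exact R.zero_mem)]
    exact one_mem _)
  -- the translated setting
  have T : Translates p A2 K2 := by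
    refine ⟨?_, ?_, hqs2, ?_⟩
    · intro x hx y hy
      obtain ⟨a, ha, rfl⟩ := (memA2 x).1 hx
      obtain ⟨b, hb, rfl⟩ := (memA2 y).1 hy
      rw [← map_mul, ← map_mul]
      exact congrArg φ (Subtype.ext (hcommA a ha b hb))
    · intro x hx
      obtain ⟨a, ha, rfl⟩ := (memA2 x).1 hx
      rw [← map_pow, show (⟨a, hA1 ha⟩ : ↥G1) ^ p = 1 from Subtype.ext (hexp a ha), map_one]
    · intro x hx hxn k hk h hh
      obtain ⟨a, ha, rfl⟩ := (memA2 x).1 hx
      have han : a ∉ normalizer (K : Set G) := by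
        intro hn
        apply hxn
        apply Subgroup.mem_normalizer_fintype
        intro y hy
        obtain ⟨m, hm, rfl⟩ := (memK2 y).1 hy
        refine (memK2 _).2 ⟨a * m * a⁻¹, (mem_normalizer_iff.1 hn m).1 hm, ?_⟩
        rw [← map_mul, ← map_inv, ← map_mul]; rfl
      obtain ⟨k', hk', rfl⟩ := (memK2 k).1 hk
      obtain ⟨h', hh', rfl⟩ := (memK2 h).1 hh
      have e : (⟨k', hK1 hk'⟩ : ↥G1) * (⟨a, hA1 ha⟩ * ⟨h', hK1 hh'⟩ * ⟨a, hA1 ha⟩⁻¹) =
          (⟨a, hA1 ha⟩ * ⟨h', hK1 hh'⟩ * ⟨a, hA1 ha⟩⁻¹) * ⟨k', hK1 hk'⟩ :=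
        Subtype.ext (hdisj a ha han k' hk' h' hh').eq
      simpa only [Commute, SemiconjBy, map_mul, map_inv] using congrArg φ e
  have hR2 : Irr A2 K2 ρ2 := by
    refine ⟨fun g h e => Units.ext e, ?_, fun U hUA hUK => ?_⟩
    · obtain ⟨k, hk, hne⟩ := hKnt
      by_contra hn
      rw [not_nontrivial_iff_subsingleton] at hn
      exact hne (Units.ext (LinearMap.ext fun v => Subsingleton.elim _ _))
    · let U' : Submodule (ZMod p) V := (U.comap R'.mkQ).map W.subtype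
      have hmU' : ∀ v, v ∈ U' ↔ ∃ hv : v ∈ W, Submodule.Quotient.mk ⟨v, hv⟩ ∈ U := by
        intro v
        constructor
        · rintro ⟨w, hw, rfl⟩; exact ⟨w.2, hw⟩
        · rintro ⟨hv, h⟩; exact ⟨⟨v, hv⟩, h, rfl⟩
      have hU'i : Inv U' := by
        constructor
        · intro a ha v hv
          obtain ⟨hv1, hv2⟩ := (hmU' v).1 hv
          refine (hmU' _).2 ⟨hWA a ha v hv1, ?_⟩
          have := hUA _ ((memA2 _).2 ⟨a, ha, rfl⟩) _ hv2
          rwa [hφσ] at this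
        · intro k hk v hv
          obtain ⟨hv1, hv2⟩ := (hmU' v).1 hv
          refine (hmU' _).2 ⟨hWK k hk v hv1, ?_⟩
          have := hUK _ ((memK2 _).2 ⟨k, hk, rfl⟩) _ hv2
          rwa [hφσ] at this
      rcases hUR U' hU'i (fun v hv => ((hmU' v).1 hv).1) with h | h
      · right
        rw [eq_top_iff]
        intro q _
        obtain ⟨v, rfl⟩ := Submodule.Quotient.mk_surjective R' q
        obtain ⟨_, h2⟩ := (hmU' v).1 (h.ge v.2)
        exact h2
      · left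
        rw [eq_bot_iff]
        intro q hq
        obtain ⟨v, rfl⟩ := Submodule.Quotient.mk_surjective R' q
        rw [Submodule.mem_bot, Submodule.Quotient.mk_eq_zero]
        exact h ((hmU' v).2 ⟨v.2, hq⟩)
  -- counting
  have hoff : Nat.card (↥W ⧸ R') ≤ Nat.card ↥A2 * Nat.card ↥(fixA ρ2 A2) := by
    let B : Subgroup G := A ⊓ stab ρ (W : Set V)
    have hB : fixA ρ B ⊓ W = W := inf_eq_right.2 fun v hv => mem_fixA.2 fun x hx => hx.2 v hv
    have h1 := hPW B inf_le_left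
    rw [hB] at h1
    have h2 : Nat.card ↥A ≤ Nat.card ↥A2 * Nat.card ↥B := by
      refine card_le_mul (fun a : ↥A => (⟨φ ⟨a, hA1 a.2⟩, (memA2 _).2 ⟨a, a.2, rfl⟩⟩ : ↥A2))
        (fun b a => if h : (b : G)⁻¹ * a ∈ B then ⟨_, h⟩ else 1) ?_
      intro b x y hx hy he
      have key : ∀ x : ↥A, φ ⟨x, hA1 x.2⟩ = φ ⟨b, hA1 b.2⟩ → (b : G)⁻¹ * x ∈ B := by
        intro x h
        have hm := A.mul_mem (A.inv_mem b.2) x.2
        refine ⟨hm, fun v hv => hker _ hm ?_ v hv⟩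
        rw [show (⟨(b : G)⁻¹ * x, hA1 hm⟩ : ↥G1) = ⟨b, hA1 b.2⟩⁻¹ * ⟨x, hA1 x.2⟩ from rfl,
          map_mul, map_inv, h, inv_mul_cancel]
      simp only [dif_pos (key x (congrArg Subtype.val hx)),
        dif_pos (key y (congrArg Subtype.val hy))] at he
      exact Subtype.ext (mul_left_cancel (congrArg Subtype.val he))
    have h3 : Nat.card ↥W ≤ Nat.card ↥A2 * Nat.card ↥(fixA ρ A ⊓ W) := by
      refine Nat.le_of_mul_le_mul_left ?_ (Nat.card_pos (α := ↥B))
      calc Nat.card ↥B * Nat.card ↥W ≤ Nat.card ↥A * Nat.card ↥(fixA ρ A ⊓ W) := h1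
        _ ≤ Nat.card ↥A2 * Nat.card ↥B * Nat.card ↥(fixA ρ A ⊓ W) := by gcongr
        _ = _ := by ring
    have h4 : Nat.card ↥(fixA ρ A ⊓ W) ≤ Nat.card ↥(fixA ρ2 A2) * Nat.card ↥R' := by
      have hmem : ∀ v : ↥(fixA ρ A ⊓ W),
          (Submodule.Quotient.mk ⟨(v : V), v.2.2⟩ : ↥W ⧸ R') ∈ fixA ρ2 A2 := by
        intro v
        rw [mem_fixA]
        intro x hx
        obtain ⟨a, ha, rfl⟩ := (memA2 x).1 hx
        rw [hφσ]
        congr 1
        exact Subtype.ext (mem_fixA.1 v.2.1 a ha)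
      refine card_le_mul (fun v => (⟨_, hmem v⟩ : ↥(fixA ρ2 A2)))
        (fun b a => if h : (⟨(a : V), a.2.2⟩ - ⟨(b : V), b.2.2⟩ : ↥W) ∈ R' then ⟨_, h⟩ else 0) ?_
      intro b x y hx hy he
      simp only [dif_pos ((Submodule.Quotient.eq R').1 (congrArg Subtype.val hx)),
        dif_pos ((Submodule.Quotient.eq R').1 (congrArg Subtype.val hy))] at he
      exact Subtype.ext (sub_left_injective
        (congrArg (fun w : ↥R' => ((w : ↥W) : V)) he))
    have h5 := Submodule.card_eq_card_quotient_mul_card R'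
    refine Nat.le_of_mul_le_mul_right ?_ (Nat.card_pos (α := ↥R'))
    calc Nat.card (↥W ⧸ R') * Nat.card ↥R' = Nat.card ↥W := by rw [h5]; ring
      _ ≤ Nat.card ↥A2 * Nat.card ↥(fixA ρ A ⊓ W) := h3
      _ ≤ Nat.card ↥A2 * (Nat.card ↥(fixA ρ2 A2) * Nat.card ↥R') := by gcongr
      _ = _ := by ring
  refine core_false T hR2 ⟨_, (memA2 _).2 ⟨a₀, ha₀, rfl⟩, fun h => ha₀n (hmove a₀ ha₀ h)⟩ hoff
    ⟨_, (memA2 _).2 ⟨c0, hc0, rfl⟩, fun h => hv0ne (hker c0 hc0 h v0 hv0), ?_⟩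
  intro x hx q
  obtain ⟨a, ha, rfl⟩ := (memA2 x).1 hx
  obtain ⟨v, rfl⟩ := Submodule.Quotient.mk_surjective R' q
  rw [hφσ, ← Submodule.Quotient.mk_sub, hφσ]
  congr 1
  exact Subtype.ext (hlink a ha v v.2)

end Cfsg.Agent.Lib.OffenderComp
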